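import Cfsg.Agent.Lib.Q5A.Def
import Cfsg.Agent.Lib.U3.Model

/-!
# Q5 branch A: local data of `U₃(q)`
-/

set_option autoImplicit false

namespace Cfsg.Lib.Q5A

open scoped MatrixGroups Matrix commutatorElement

variable {E : Type*} [Field E] {σ : E →+* E} {q : ℕ}

section

open U3

variable {G : Type*} [Group G] [Fact (Function.Involutive σ)] (M : Model σ q G) {x y x' y' c d : E}

omit [Fact (Function.Involutive σ)] in
theorem hs0 (h : σ d = -d) : Hs σ 0 d := by simp [Hs, h]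

theorem u0_comm (h : σ d = -d) (h' : Hs σ x y) : M.u x y * M.u 0 d = M.u 0 d * M.u x y := by
  rw [M.u_mul (hs0 h) h', M.u_mul h' (hs0 h)]; simp [add_comm]

theorem u0_mul (h : σ d = -d) (h' : σ c = -c) : M.u 0 d * M.u 0 c = M.u 0 (d + c) := by
  rw [M.u_mul (hs0 h) (hs0 h')]; simp

theorem u0_inv (h : σ d = -d) : (M.u 0 d)⁻¹ = M.u 0 (-d) := by rw [M.u_inv (hs0 h), neg_zero, h]

theorem u_commutator (h : Hs σ x y) (h' : Hs σ x' y') :
    ⁅M.u x y, M.u x' y'⁆ = M.u 0 (x * σ x' - x' * σ x) := by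
  have e : σ (x * σ x' - x' * σ x) = -(x * σ x' - x' * σ x) := by simp [bb]; ring
  rw [commutatorElement_def, mul_assoc, ← mul_inv_rev, mul_inv_eq_iff_eq_mul, M.u_mul h h', M.u_mul h' h,
    M.u_mul (hs0 e) (h'.mul h)]
  congr 1 <;> ring

theorem h_u0 (hc : c ≠ 0) (h : σ d = -d) : M.h c * M.u 0 d * (M.h c)⁻¹ = M.u 0 (c * σ c * d) := by
  rw [M.h_conj_u hc (hs0 h), mul_zero]

theorem exists_h_u0 (h : σ d = -d) (hc : σ c = c) (c0 : c ≠ 0) :
    ∃ a, a ≠ 0 ∧ a * σ a = c ∧ M.h a * M.u 0 d * (M.h a)⁻¹ = M.u 0 (c * d) := by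
  obtain ⟨a, ha⟩ := M.bar.exists_norm_eq hc
  have a0 : a ≠ 0 := fun e => c0 (by simp [← ha, e])
  exact ⟨a, a0, ha, by rw [h_u0 M a0 h, ha]⟩

theorem t_u (h : Hs σ x y) : M.h (-1) * M.u x y = M.u (-x) y * M.h (-1) := by
  simpa using M.h_mul_u (neg_ne_zero.2 one_ne_zero) h

theorem t_t : M.h (-1) * M.h (-1) = 1 := by
  rw [M.h_mul (neg_ne_zero.2 one_ne_zero) (neg_ne_zero.2 one_ne_zero)]; simp [M.h_one]

theorem w_t : M.w * M.h (-1) = M.h (-1) * M.w := by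
  simpa using M.w_mul_h (neg_ne_zero.2 (one_ne_zero (α := E)))

theorem h_t (hc : c ≠ 0) : M.h c * M.h (-1) = M.h (-1) * M.h c := by
  rw [M.h_mul hc (neg_ne_zero.2 one_ne_zero), M.h_mul (neg_ne_zero.2 one_ne_zero) hc, mul_comm]

theorem h_w (hc : c ≠ 0) : M.h c * M.w = M.w * M.h (σ c)⁻¹ := by
  rw [M.w_mul_h (by simpa using hc), map_inv₀, inv_inv, bb]

theorem hs_half (t0 : (2 : E) ≠ 0) (z : E) : Hs σ z (z * σ z / 2) := by
  rw [Hs, map_div₀, map_mul, bb, map_ofNat]; field_simp; ring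

theorem half_pow (t0 : (2 : E) ≠ 0) (z : E) (n : ℕ) :
    M.u z (z * σ z / 2) ^ n = M.u (n * z) (n * z * σ (n * z) / 2) := by
  induction n with
  | zero => simp [M.u_zero]
  | succ n ih =>
    rw [pow_succ, ih, M.u_mul (hs_half t0 _) (hs_half t0 _)]
    congr 1
    · push_cast; ring
    · simp only [map_mul, map_natCast]; push_cast; field_simp; ring

theorem t_half (t0 : (2 : E) ≠ 0) (z : E) :
    M.h (-1) * M.u z (z * σ z / 2) * M.h (-1) = (M.u z (z * σ z / 2))⁻¹ := by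
  rw [t_u M (hs_half t0 z), mul_assoc, t_t, mul_one, M.u_inv (hs_half t0 z), map_div₀, map_mul, bb,
    map_ofNat, mul_comm]

theorem conj_t (t0 : (2 : E) ≠ 0) (hc : σ c = c) (c0 : c ≠ 0) : IsConj (M.h (-1)) (M.w * M.h c) := by
  obtain ⟨z, hz⟩ := M.bar.exists_norm_eq (μ := -(2 * c)) (by simp [hc, map_ofNat])
  have hY : z * σ z / 2 = -c := by rw [hz]; field_simp
  have h1 := hs_half (σ := σ) t0 z
  have h2 := hs_half (σ := σ) t0 (z / 2)
  have e1 : M.u (z / 2) (z / 2 * σ (z / 2) / 2) * M.h (-1) * (M.u (z / 2) (z / 2 * σ (z / 2) / 2))⁻¹ =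
      M.u z (z * σ z / 2) * M.h (-1) := by
    rw [← t_half M t0, ← mul_assoc, ← mul_assoc, mul_assoc (M.u _ _) (M.h (-1)) (M.h (-1)), t_t, mul_one,
      M.u_mul h2 h2]
    congr 2
    · field_simp; ring
    · rw [map_div₀, map_ofNat]; field_simp; ring
  rw [hY] at h1 e1
  have n0 : -c ≠ 0 := neg_ne_zero.2 c0
  have e2 := M.w_u_w h1 n0
  have h3 := h1.weyl'
  rw [map_neg, hc] at e2
  have e3 : M.u (-z / -c) (-c)⁻¹ * M.h (-1) = M.h (-1) * (M.u (-z / -c) (-c)⁻¹)⁻¹ := by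
    rw [M.u_inv h3, t_u M h3.inv, neg_neg, map_inv₀, map_neg, hc]
  refine (isConj_iff.2 ⟨_, e1⟩).trans ((isConj_iff.2 ⟨M.w, ?_⟩).trans
    (isConj_iff.2 ⟨M.u (-z / -c) (-c)⁻¹, rfl⟩).symm)
  rw [M.w_inv, ← mul_assoc, mul_assoc _ (M.h (-1)), ← w_t, ← mul_assoc, e2, mul_assoc _ _ (M.h (-1)), e3,
    ← mul_assoc, mul_assoc _ (M.h (-c)), M.h_mul n0 (neg_ne_zero.2 one_ne_zero)]
  simp [mul_assoc]

theorem wh_mem {H : Subgroup G} (h : Hs σ x y) (y0 : y ≠ 0) (h1 : M.w * M.u x y * M.w ∈ H)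
    (h2 : M.u (-x / σ y) y⁻¹ ∈ H) (h3 : M.u (-x / y) y⁻¹ ∈ H) : M.w * M.h y ∈ H := by
  rw [M.w_u_w h y0, H.mul_mem_cancel_right h3, mul_assoc, H.mul_mem_cancel_left h2] at h1
  exact h1

theorem wh_div (d0 : d ≠ 0) (c0 : c ≠ 0) : (M.w * M.h d)⁻¹ * (M.w * M.h (c * d)) = M.h c := by
  rw [mul_inv_rev, mul_assoc, inv_mul_cancel_left, M.h_inv d0, M.h_mul (inv_ne_zero d0) (mul_ne_zero c0 d0)]
  congr 1; field_simp

theorem gen_top (t0 : (2 : E) ≠ 0) (hd : σ d = -d) (d0 : d ≠ 0) (hc : σ c = -c) (c0 : c ≠ 0)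
    {H : Subgroup G} (hx : M.u 1 (1 * σ 1 / 2) ∈ H) (hy : M.u c (c * σ c / 2) ∈ H)
    (ha : ∀ g, g * M.h (-1) = M.h (-1) * g → g * M.u 0 d * g⁻¹ ∈ H) : H = ⊤ := by
  have k : ∀ g, g * M.h (-1) = M.h (-1) * g → ∀ y, σ y = -y → g * M.u 0 y * g⁻¹ ∈ H := fun g hg y hy => by
    by_cases y0 : y = 0
    · simp [y0, M.u_zero]
    obtain ⟨a, a0, -, e⟩ := exists_h_u0 M hd (c := y / d) (by simp [hy, hd]) (div_ne_zero y0 d0)
    rw [div_mul_cancel₀ _ d0] at e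
    have := ha (g * M.h a) (by rw [mul_assoc, h_t M a0, ← mul_assoc, hg, mul_assoc])
    rw [← e]
    simpa [mul_assoc] using this
  have k0 : ∀ y, σ y = -y → M.u 0 y ∈ H := fun y hy => by simpa using k 1 (by simp) y hy
  have k1 : ∀ y, σ y = -y → y ≠ 0 → M.w * M.h y ∈ H := fun y hy y0 =>
    wh_mem M (hs0 hy) y0 (by simpa [M.w_inv] using k M.w (w_t M) y hy)
      (by simpa using k0 y⁻¹ (by simp [hy])) (by simpa using k0 y⁻¹ (by simp [hy]))
  have k2 : ∀ z, M.u z (z * σ z / 2) ∈ H → ∀ a, σ a = a → M.u (a * z) (a * z * σ (a * z) / 2) ∈ H :=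
    fun z hz a ha => by
    by_cases a0 : a = 0
    · simp [a0, M.u_zero]
    have h1 : M.h a ∈ H := wh_div M d0 a0 ▸
      H.mul_mem (H.inv_mem (k1 d hd d0)) (k1 _ (by simp [ha, hd]) (mul_ne_zero a0 d0))
    have := H.mul_mem (H.mul_mem h1 hz) (H.inv_mem h1)
    rw [M.h_conj_u a0 (hs_half t0 z), ha] at this
    convert this using 2
    · field_simp
    · rw [map_mul, ha]; ring
  have k3 : ∀ x y, Hs σ x y → M.u x y ∈ H := fun x y h => by
    have h1 := H.mul_mem (k2 1 hx ((x + σ x) / 2) (by simp [bb, map_ofNat, add_comm]))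
      (k2 c hy ((x - σ x) / (2 * c)) (by simp [bb, map_ofNat, hc]; field_simp; ring))
    have h2 := (hs_half (σ := σ) t0 ((x + σ x) / 2 * 1)).mul (hs_half (σ := σ) t0 ((x - σ x) / (2 * c) * c))
    rw [M.u_mul (hs_half t0 _) (hs_half t0 _)] at h1
    have e : (x + σ x) / 2 * 1 + (x - σ x) / (2 * c) * c = x := by field_simp; ring
    rw [e] at h1 h2
    generalize (_ + _ + _ : E) = Y at h1 h2
    have h3 : σ (y - Y) = -(y - Y) := by
      rw [map_sub]; linear_combination h.eq - h2.eq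
    have := H.mul_mem (k0 _ h3) h1
    rw [M.u_mul (hs0 h3) h2] at this
    simpa using this
  obtain ⟨z, hz⟩ := M.bar.exists_norm_eq (μ := 2) (map_ofNat σ 2)
  have h1 : Hs σ z 1 := by rw [Hs, hz, map_one]; norm_num
  have h2 := wh_mem M (H := H) h1 one_ne_zero (by
    have := H.mul_mem (H.mul_mem (k1 d hd d0) (k3 _ _ (h1.tor (inv_ne_zero d0)))) (H.inv_mem (k1 d hd d0))
    rw [← M.h_conj_u (inv_ne_zero d0) h1, ← M.h_inv d0] at this
    simpa [mul_assoc, M.w_inv] using this) (k3 _ _ h1.weyl) (k3 _ _ h1.weyl')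
  rw [M.h_one, mul_one] at h2
  exact M.eq_top_of_u k3 h2

theorem kz_three (hd : σ d = -d) (hc : σ c = -c) (c0 : c ≠ 0) (hx : σ x = x) (x0 : x ≠ 0)
    (x1 : x ^ 2 ≠ 1) {H : Subgroup G}
    (ha : ∀ g, g * M.h (-1) = M.h (-1) * g → g * (M.w * M.h c) * g⁻¹ ∈ H) : M.u 0 d ∈ H := by
  have k : ∀ g, g * M.h (-1) = M.h (-1) * g → g * M.h x * g⁻¹ ∈ H := fun g hg => by
    obtain ⟨a, ha'⟩ := M.bar.exists_norm_eq (μ := x⁻¹) (by simp [hx])
    have a0 : a ≠ 0 := fun e => x0 (by simpa [e] using ha'.symm)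
    have h1 := ha (g * M.h a) (by rw [mul_assoc, h_t M a0, ← mul_assoc, hg, mul_assoc])
    have s0 : σ a ≠ 0 := by simpa using a0
    have e : M.h a * (M.w * M.h c) * (M.h a)⁻¹ = M.w * M.h (x * c) := by
      rw [← mul_assoc, h_w M a0, M.h_inv a0, mul_assoc, mul_assoc, M.h_mul c0 (inv_ne_zero a0),
        M.h_mul (inv_ne_zero s0) (mul_ne_zero c0 (inv_ne_zero a0)), ← inv_inv x, ← ha']
      congr 2; field_simp
    have h2 := H.mul_mem (H.inv_mem (ha g hg)) h1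
    rw [← wh_div M c0 x0, ← e]
    simpa [mul_assoc] using h2
  have n : 1 - x ^ 2 ≠ 0 := sub_ne_zero.2 x1.symm
  have hy : σ (d / (1 - x ^ 2)) = -(d / (1 - x ^ 2)) := by simp [hx, hd, neg_div]
  have h1 := H.mul_mem (k (M.u 0 (d / (1 - x ^ 2))) (by simpa using (t_u M (hs0 hy)).symm))
    (H.inv_mem (k 1 (by simp)))
  rw [one_mul, inv_one, mul_one, u0_inv M hy, mul_assoc, mul_assoc, ← mul_assoc (M.h x),
    h_u0 M x0 (by rw [map_neg, hy]), u0_mul M hy (by simp [hx, hd, neg_div])] at h1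
  convert h1 using 2
  rw [hx]; field_simp; ring

end

/-- `M` from `U3.exists_model_PSU` (see `Dim3.loc3_psu` for the API), `δ ≠ 0` skew (`b.exists_skew`), `t = M.h (-1)`,
`x = M.u 1 2⁻¹`, `y = M.u ε (ε σ ε / 2)` with `ε` skew, `a = ⁅x, y⁆ = M.u 0 (∓2 ε) =: M.u 0 d`,
`b = M.w * M.u 0 (-d⁻¹) * M.w`.  `w_u_w` with `x = 0`, `y = -d⁻¹` gives `b = a⁻¹ * (w * h y) * a⁻¹`, so
`a b a = w * h y =: w₀`, `w₀² = h (-1)` (`w_mul_h`), `w₀ a w₀⁻¹ = b` gives the braid relation.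
`pure`: `s = M.w`.  For `z ≠ 0`, `Y = z σ z / 2`: `u (z/2) _ * t * (u (z/2) _)⁻¹ = u z Y * t`, and `w_u_w` gives
`w * (u z Y * t) * w = u₁ * (w * h (-Y)) * u₁⁻¹` with `u₁ = u (-z/Y) Y⁻¹`; take `z σ z = -2` and `z σ z = 2`
(`b.exists_norm_eq`).
`re`: `h c` with `c σ c = -1`.  `gen`: `H ∋ u 0 y` for all skew `y` (conjugate `a` by `h c`, norms are onto the fixed
field), `w * u 0 y * w` (`w` commutes with `t`), hence `w * h y` (`w_u_w`) and `h λ` for fixed `λ`; so `H ∋ u (λ + μ ε) _`,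
`U ≤ H`, `w U w = (w h y) U (w h y)⁻¹ ≤ H`; `N = closure (U ∪ w U w)` is normalised by `U` and `w`, so normal
(`eq_top_of_u` for its normaliser), non-trivial, and the group is simple (or: `w_u_w` gives `w h y ∈ H` for all admissible `y`).
`kz`: `l ≠ 3`; or `l = 3 < q`: third alternative, the conjugates of `w₀` by `h c` are the `w * h y'`, `y'` skew, so
`h λ ∈ H`, also conjugated by `u 0 y'`, and `a = [h λ, u 0 y']` with `(λ² - 1) y' = d`; or `q = 3`: last alternative by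
`M.bruhat` / `smul_inf_iff` (skew elements are `0, ±d`). -/
theorem loc_psu [Finite E] (b : Unitary.IsBar q σ) (l : ℕ) [Fact l.Prime] [CharP E l] (h2 : l ≠ 2) :
    ∃ t a b x y : PSU 3 E q, Loc l t a b x y := by
  haveI : Fact (Function.Involutive σ) := ⟨b.invol⟩
  obtain ⟨M, -⟩ := U3.exists_model_PSU b
  obtain ⟨c, c0, hc⟩ := b.exists_skew
  have t0 : (2 : E) ≠ 0 := fun e => h2 ((Nat.prime_dvd_prime_iff_eq Fact.out Nat.prime_two).1
    ((CharP.cast_eq_zero_iff E l 2).1 (by exact_mod_cast e)))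
  obtain ⟨d, hdc⟩ : ∃ d, d = 1 * σ c - c * σ 1 := ⟨_, rfl⟩
  have hd : σ d = -d := by simp [hdc, hc]
  have d0 : d ≠ 0 := fun e => mul_ne_zero t0 c0 (by rw [hdc, hc, map_one] at e; linear_combination -e)
  have he : σ (-d⁻¹) = - -d⁻¹ := by simp [hd]
  have e0 : -d⁻¹ ≠ 0 := by simpa using d0
  have n0 : (-1 : E) ≠ 0 := neg_ne_zero.2 one_ne_zero
  have aba : M.u 0 d * (M.w * M.u 0 (-d⁻¹) * M.w) * M.u 0 d = M.w * M.h (-d⁻¹) := by
    rw [M.w_u_w (hs0 he) e0]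
    simp [← u0_inv M hd, mul_assoc, inv_neg]
  have fx : ∀ a : E, σ (a * σ a) = a * σ a := fun a => by rw [map_mul, U3.bb, mul_comm]
  refine ⟨M.h (-1), M.u 0 d, M.w * M.u 0 (-d⁻¹) * M.w, M.u 1 (1 * σ 1 / 2), M.u c (c * σ c / 2),
    t_t M, fun e => ?_, ⟨M.w, w_t M, fun e => M.w_not_mem_B (e ▸ M.T_le_B (M.h_mem_T n0)),
      by simpa [M.h_one] using conj_t M t0 (map_one σ) one_ne_zero, conj_t M t0 (by simp) n0⟩, ?_,
    by simpa using t_u M (hs0 hd), ?_, ?_, u0_comm M hd (hs_half t0 _), u0_comm M hd (hs_half t0 _),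
    by rw [u_commutator M (hs_half t0 _) (hs_half t0 _), hdc], by rw [half_pow M t0]; simp [M.u_zero],
    by rw [half_pow M t0]; simp [M.u_zero], t_half M t0 _, t_half M t0 _, ?_,
    fun H => gen_top M t0 hd d0 hc c0, .inr (.inr ?_)⟩
  · have h := hs_half (σ := σ) t0 1
    have := t_u M h
    rw [e, one_mul, mul_one, M.u_inj h (by simpa [U3.Hs] using h)] at this
    exact t0 (by linear_combination this.1)
  · have : ∀ n : ℕ, M.u 0 d ^ n = M.u 0 (n * d) := fun n => by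
      induction n with
      | zero => simp [M.u_zero]
      | succ n ih => rw [pow_succ, ih, u0_mul M (by simp [hd]) hd]; congr 1; push_cast; ring
    simp [this, M.u_zero]
  · refine mul_right_cancel (b := M.u 0 d) (.trans ?_ (mul_assoc _ _ _).symm)
    rw [mul_assoc _ (M.u 0 d) (_ * _), ← mul_assoc (M.u 0 d) _ (M.u 0 d), aba, mul_assoc,
      M.h_mul_u e0 (hs0 hd), he, mul_assoc _ M.w, ← mul_assoc M.w M.w, M.w_mul_w, one_mul, mul_assoc M.w]
    congr 3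
    · simp
    · field_simp
  · rw [aba, M.w_mul_h e0, mul_assoc, ← M.w_mul_h e0, ← mul_assoc M.w, M.w_mul_w, one_mul,
      M.h_mul (by simpa using d0) e0, he]
    congr 1; field_simp
  · obtain ⟨a, -, -, e⟩ := exists_h_u0 M hd (c := -1) (by simp) n0
    exact isConj_iff.2 ⟨_, by rw [e, u0_inv M hd, neg_one_mul]⟩
  by_cases hx : ∃ x : E, σ x = x ∧ x ≠ 0 ∧ x ^ 2 ≠ 1
  · obtain ⟨x, hx, x0, x1⟩ := hx
    refine .inl fun H hH => kz_three M hd he e0 hx x0 x1 ?_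
    rwa [aba] at hH
  push Not at hx
  refine .inr fun g => ?_
  have k : ∀ {x y a}, U3.Hs σ x y → a ≠ 0 →
      M.u x y * M.h a * M.u 0 d * (M.u x y * M.h a)⁻¹ = M.u 0 (a * σ a * d) := fun {x y a} h a0 => by
    rw [mul_inv_rev, ← mul_assoc, mul_assoc (M.u x y), mul_assoc (M.u x y), h_u0 M a0 hd,
      u0_comm M (by rw [map_mul, fx, hd, mul_neg]) h, mul_inv_cancel_right]
  rcases M.bruhat g with h | ⟨x, y, x', y', a, h, h', a0, rfl⟩
  · obtain ⟨x, y, a, h', a0, rfl⟩ := M.smul_inf_iff.1 h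
    rw [k h' a0]
    rcases sq_eq_one_iff.1 (hx _ (fx a) (by simpa using a0)) with e | e
    · exact .inl (by rw [e, one_mul])
    · exact .inr (.inl (by rw [e, u0_inv M hd, neg_one_mul]))
  refine .inr (.inr ⟨M.u x y, u0_comm M hd h, ?_⟩)
  have e1 : M.u x y * M.w * M.u x' y' * M.h a * M.u 0 d * (M.u x y * M.w * M.u x' y' * M.h a)⁻¹ =
      M.u x y * (M.w * M.u 0 (a * σ a * d) * M.w) * (M.u x y)⁻¹ := by
    rw [← k h' a0]; simp [mul_assoc, M.w_inv]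
  rw [e1]
  rcases sq_eq_one_iff.1 (hx (a * σ a * d * d) (by rw [map_mul, map_mul, fx, hd]; ring)
    (by simp [a0, d0])) with e | e
  · refine .inr ?_
    rw [mul_inv_rev, mul_inv_rev, M.w_inv, u0_inv M he, neg_neg, ← mul_assoc M.w,
      eq_inv_of_mul_eq_one_left e]
  · refine .inl ?_
    congr 5
    field_simp
    linear_combination e

/-- `s = u 0 c`, `t = u 0 c'` with `c ≠ c'` fixed by `σ`, `c = ` the commutator constant of `x = u 1 _`, `y = u ω _`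
(compare `Dim3.not_four_comm_psu`); `h a` conjugates `u 0 c` to `u 0 (a σ a c)`. -/
theorem four_psu [Finite E] (b : Unitary.IsBar 4 σ) : ∃ s t x y : PSU 3 E 4, s * s = 1 ∧ s ≠ 1 ∧ t * s = s * t ∧
    t ≠ s ∧ IsConj s t ∧ IsConj s (t * s) ∧ x * s = s * x ∧ x * t = t * x ∧ y * s = s * y ∧ y * t = t * y ∧
    ⁅x, y⁆ = s := by
  haveI : Fact (Function.Involutive σ) := ⟨b.invol⟩
  obtain ⟨M, -⟩ := U3.exists_model_PSU b
  have t0 : (2 : E) = 0 := by
    have := b.cast_q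
    exact pow_eq_zero_iff (n := 2) two_ne_zero |>.1 (by push_cast at this; linear_combination this)
  obtain ⟨s, hs, s0, s1⟩ := b.exists_fixed_ne (by norm_num)
  obtain ⟨w, hw⟩ := b.exists_ne
  obtain ⟨x, hx⟩ := b.exists_trace_eq (s := 1 * σ 1) (by simp)
  obtain ⟨y, hy⟩ := b.exists_trace_eq (s := w * σ w) (by rw [map_mul, b.invol, mul_comm])
  obtain ⟨d, hdc⟩ : ∃ d, d = 1 * σ w - w * σ 1 := ⟨_, rfl⟩
  have hd : σ d = -d := by simp [hdc, b.invol]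
  have d0 : d ≠ 0 := by simpa [hdc, sub_eq_zero] using hw
  have hd' : σ (s * d) = -(s * d) := by simp [hs, hd]
  have cj : ∀ c, σ c = c → c ≠ 0 → IsConj (M.u 0 d) (M.u 0 (c * d)) := fun c hc c0 =>
    let ⟨_, _, _, e⟩ := exists_h_u0 M hd hc c0
    isConj_iff.2 ⟨_, e⟩
  refine ⟨M.u 0 d, M.u 0 (s * d), M.u 1 x, M.u w y, ?_, by simpa [M.u_eq_one (hs0 hd)],
    u0_comm M hd (hs0 hd'), by simp [M.u_inj (hs0 hd') (hs0 hd), d0, s1], cj s hs s0, ?_, u0_comm M hd hx,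
    u0_comm M hd' hx, u0_comm M hd hy, u0_comm M hd' hy, by rw [u_commutator M hx hy, hdc]⟩
  · rw [u0_mul M hd hd, ← two_mul, t0, zero_mul, M.u_zero]
  · rw [u0_mul M hd' hd, ← add_one_mul]
    exact cj _ (by simp [hs]) fun e => s1 (by linear_combination e - t0)

end Cfsg.Lib.Q5A
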