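import Cfsg.Agent.Lib.Q5.T2
import Cfsg.Agent.Lib.Q5.T3

/-!
# Q5 branch A: faithful representations of degree five, local data of `L₃(r)` and `U₃(r)`
-/

set_option autoImplicit false

namespace Cfsg.Lib.Q5A

open scoped MatrixGroups Matrix commutatorElement
open Cfsg.Geo Cfsg.Lib.Asch Cfsg.Lib.Linear Cfsg.Lib.Q5

variable {K : Type*} [Field K] {X : Type*} [Group X]

/-- A faithful irreducible representation of determinant one. -/
structure Rp (ρ : X →* G5 K) : Prop where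
  inj : Function.Injective ρ
  irr : Irr ρ.range
  det : ∀ g, (ρ g).1.det = 1

theorem rp_of {P : Subgroup (G5 K)} (h : QS P) (hz : NoZ P) (e : Sq P ≃* X) :
    ∃ ρ : X →* G5 K, Rp ρ ∧ ρ.range = P := by
  obtain ⟨f⟩ := hz.iso e
  have r : (P.subtype.comp f.symm.toMonoidHom).range = P := by
    rw [MonoidHom.range_comp, MonoidHom.range_eq_top.2 f.symm.surjective, ← MonoidHom.range_eq_map,
      P.range_subtype]
  exact ⟨_, ⟨P.subtype_injective.comp f.symm.injective, by rw [r]; exact h.irr,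
    fun g => h.det (f.symm g).2⟩, r⟩

theorem Rp.scott {ρ : X →* G5 K} (h : Rp ρ) {a b : X} (g : Subgroup.closure {a, b} = ⊤) :
    10 ≤ ((ρ a).1 - 1).rank + ((ρ b).1 - 1).rank + ((ρ (a * b)).1 - 1).rank := by
  rw [map_mul]
  refine Q5.scott ?_
  rw [← Set.image_pair, ← MonoidHom.map_closure, g, ← MonoidHom.range_eq_map]
  exact h.irr

theorem Rp.ta [IsAlgClosed K] [NeZero (2 : K)] {ρ : X →* G5 K} (h : Rp ρ) {s t : X} (h2 : t * t = 1) (h1 : t ≠ 1)
    (c : s * t = t * s) (n : s ≠ t) (e1 : IsConj t s) (e2 : IsConj t (s * t)) : TA (ρ t) :=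
  ta_of_pure (s := ρ s) (by rw [← map_mul, h2, map_one]) ((map_ne_one_iff ρ h.inj).2 h1) (h.det t)
    (by rw [← map_mul, c, map_mul]) (h.inj.ne n) (ρ.map_isConj e1) (map_mul ρ s t ▸ ρ.map_isConj e2)

theorem Rp.real {ρ : X →* G5 K} [Finite X] (h : Rp ρ) (p : ℕ) [Fact p.Prime] [CharP K p]
    (r : ∀ x : X, Nat.Coprime (orderOf x) p → IsConj x x⁻¹) : Real ρ.range := by
  haveI : Finite ρ.range := Finite.of_surjective _ ρ.rangeRestrict_surjective
  refine real_of_conj p ?_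
  rintro _ ⟨x, rfl⟩ hx
  rw [orderOf_injective ρ h.inj] at hx
  exact map_inv ρ x ▸ ρ.map_isConj (r x hx)

/-- No non-zero vector is fixed by the whole group. -/
theorem Rp.fix {ρ : X →* G5 K} (h : Rp ρ) {v : Fin 5 → K} (hv : ∀ g, (ρ g).1 *ᵥ v = v) : v = 0 := by
  rcases h.irr (Submodule.span K {v}) (by
    rintro _ ⟨g, rfl⟩ w hw
    obtain ⟨c, rfl⟩ := Submodule.mem_span_singleton.1 hw
    rw [Matrix.mulVec_smul, hv]
    exact hw) with e | e
  · exact Submodule.span_singleton_eq_bot.1 e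
  · have := (finrank_span_le_card (R := K) {v}).trans_eq (by simp : _ = 1)
    rw [e] at this
    simp at this

/-- `w = [u, v]` is central in `⟨u, v⟩` and everything is conjugate to `a`. -/
structure Hz (a u v w : X) : Prop where
  e : u * v = w * v * u
  wu : w * u = u * w
  wv : w * v = v * w
  c1 : IsConj a u
  c2 : IsConj a v
  c3 : IsConj a w
  c4 : IsConj a (w * u)
  c5 : IsConj a (w * v)

/-- Local data of `L₃(r)` and `U₃(r)`, `r` a power of the odd prime `l`: `a, b` are opposite root elements,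
`⟨a, b⟩ = SL₂(l)` with central involution `t`, and `a = [x, y]` with `x, y` inverted by `t`. -/
structure Loc (l : ℕ) (t a b x y : X) : Prop where
  t2 : t * t = 1
  t1 : t ≠ 1
  pure : ∃ s, s * t = t * s ∧ s ≠ t ∧ IsConj t s ∧ IsConj t (s * t)
  al : a ^ l = 1
  ta : t * a = a * t
  br : a * b * a = b * a * b
  w2 : a * b * a * (a * b * a) = t
  xa : x * a = a * x
  ya : y * a = a * y
  xy : ⁅x, y⁆ = a
  xl : x ^ l = 1
  yl : y ^ l = 1
  tx : t * x * t = x⁻¹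
  ty : t * y * t = y⁻¹
  re : IsConj a a⁻¹
  gen : ∀ H : Subgroup X, x ∈ H → y ∈ H → (∀ g, g * t = t * g → g * a * g⁻¹ ∈ H) → H = ⊤
  kz : l ≠ 3 ∨ (∃ u v, Hz a x y a ∧ Hz a v u b⁻¹ ∧ Hz a u a y ∧ Hz a a v x) ∨
    (∀ H : Subgroup X, (∀ g, g * t = t * g → g * (a * b * a) * g⁻¹ ∈ H) → a ∈ H) ∨
    ∀ g, g * a * g⁻¹ = a ∨ g * a * g⁻¹ = a⁻¹ ∨
      ∃ u, u * a = a * u ∧ (g * a * g⁻¹ = u * b * u⁻¹ ∨ g * a * g⁻¹ = u * b⁻¹ * u⁻¹)

end Cfsg.Lib.Q5A
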